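import Groth.Agent.Models.H55.Recog
import Groth.Agent.Models.H58.CurveBC
import Groth.Agent.S1535
import Groth.Agent.VarietyB.ResMap
import Groth.Prelude.Def_ModelsG

/-!
# A curve of genus zero becomes a projective line over a field over which it has a point
-/

set_option autoImplicit false
universe u

open AlgebraicGeometry CategoryTheory CategoryTheory.Limits IsLocalRing
open Groth.Agent.Dix.InterNum

namespace Groth.Agent.Models.H59.ConicEnd

/-- `H⁰(Y, O) = k` in terms of Čech cohomology. -/
theorem finrank_H0 (k : Type u) [Field k] (X : Scheme.{u}) [X.Over (Spec (CommRingCat.of k))]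
    (h : IsIso (X ↘ Spec (CommRingCat.of k)).appTop) :
    Module.finrank k (Coh.HH X (Coh.structureModule X) 0) = 1 := by
  let _ := CurvesB.HZero.moduleΓ k (Coh.structureModule X)
  have h1 : Function.Bijective (CurvesB.HZero.gl k X) := by
    have h2 := ConcreteCategory.bijective_of_isIso (X ↘ Spec (CommRingCat.of k)).appTop
    have h3 := ConcreteCategory.bijective_of_isIso (Scheme.ΓSpecIso (CommRingCat.of k)).inv
    exact h2.comp h3
  have hs : Function.Bijective (LinearMap.toSpanSingleton k Γ(Coh.structureModule X, ⊤)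
      (show Γ(Coh.structureModule X, ⊤) from (1 : Γ(X, ⊤)))) := by
    have : ∀ a : k, (LinearMap.toSpanSingleton k Γ(Coh.structureModule X, ⊤)
        (show Γ(Coh.structureModule X, ⊤) from (1 : Γ(X, ⊤)))) a =
          (show Γ(Coh.structureModule X, ⊤) from (CurvesB.HZero.gl k X a : Γ(X, ⊤))) := by
      intro a
      change CurvesB.HZero.gl k X a * 1 = _
      rw [mul_one]
    constructor
    · intro a b hab
      rw [this, this] at hab
      exact h1.1 hab
    · intro s
      obtain ⟨a, ha⟩ := h1.2 s
      exact ⟨a, (this a).trans ha⟩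
  rw [(CurvesB.HZero.equivLin k (Coh.structureModule X)).finrank_eq,
    ← (LinearEquiv.ofBijective _ hs).finrank_eq, Module.finrank_self]

/-- The residue condition at the image of a section. -/
theorem exists_const_sub_mem {k : Type u} [Field k] {Y : Scheme.{u}} (q : Y ⟶ Spec (CommRingCat.of k))
    (s : Spec (CommRingCat.of k) ⟶ Y) (hs : s ≫ q = 𝟙 _) (z : Spec (CommRingCat.of k))
    (c : Y.presheaf.stalk (s z)) :
    ∃ a : k, c - Y.presheaf.germ ⊤ (s z) trivial (glo q a) ∈ maximalIdeal (Y.presheaf.stalk (s z)) := by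
  have hB : ∀ b : (Spec (CommRingCat.of k)).presheaf.stalk z,
      ∃ a : k, (Spec (CommRingCat.of k)).presheaf.germ ⊤ z trivial (glo (𝟙 (Spec (CommRingCat.of k))) a) = b := by
    intro b
    have hsurj : Function.Surjective (glo (𝟙 (Spec (CommRingCat.of k)))) := by
      intro t
      obtain ⟨a, ha⟩ := (ConcreteCategory.bijective_of_isIso (Scheme.ΓSpecIso (CommRingCat.of k)).inv).2 t
      refine ⟨a, ?_⟩
      rw [← ha]
      change ((𝟙 (Spec (CommRingCat.of k)) : Spec (CommRingCat.of k) ⟶ _).appTop).hom
        ((Scheme.ΓSpecIso (CommRingCat.of k)).inv.hom a) = _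
      rw [Scheme.Hom.id_appTop]
      rfl
    let φ : k →+* (Spec (CommRingCat.of k)).presheaf.stalk z :=
      ((Spec (CommRingCat.of k)).presheaf.germ ⊤ z trivial).hom.comp (glo (𝟙 (Spec (CommRingCat.of k))))
    let _ := (Spec (CommRingCat.of k)).presheaf.algebra_section_stalk (U := ⊤) ⟨z, trivial⟩
    have hloc := (isAffineOpen_top (Spec (CommRingCat.of k))).isLocalization_stalk ⟨z, trivial⟩
    obtain ⟨⟨u, v⟩, h⟩ := IsLocalization.surj
      ((isAffineOpen_top (Spec (CommRingCat.of k))).primeIdealOf ⟨z, trivial⟩).asIdeal.primeCompl b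
    obtain ⟨u', rfl⟩ := hsurj u
    obtain ⟨v, hv⟩ := v
    obtain ⟨v', rfl⟩ := hsurj v
    have hv' : v' ≠ 0 := by
      rintro rfl
      apply hv
      rw [map_zero]
      exact zero_mem _
    have hu : IsUnit (φ v') := (IsUnit.mk0 v' hv').map φ
    have h' : b * φ v' = φ u' := h
    refine ⟨u' * v'⁻¹, ?_⟩
    change φ (u' * v'⁻¹) = b
    apply hu.mul_left_injective
    change φ (u' * v'⁻¹) * φ v' = b * φ v'
    rw [h', ← map_mul, inv_mul_cancel_right₀ hv']
  obtain ⟨a, ha⟩ := hB ((s.stalkMap z).hom c)
  refine ⟨a, ?_⟩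
  have h1 : (s.stalkMap z).hom (c - Y.presheaf.germ ⊤ (s z) trivial (glo q a)) = 0 := by
    rw [map_sub, ← ha, sub_eq_zero, ← hs, glo_comp]
    exact (ConcreteCategory.congr_hom (s.germ_stalkMap ⊤ z trivial) (glo q a)).symm
  by_contra hc
  have h2 : IsUnit (c - Y.presheaf.germ ⊤ (s z) trivial (glo q a)) := by
    rwa [mem_maximalIdeal, mem_nonunits_iff, not_not] at hc
  have h3 := h2.map (s.stalkMap z).hom
  rw [h1] at h3
  exact not_isUnit_zero h3

/-- A smooth proper curve with `H⁰ = k`, genus zero and a rational point is the projective line. -/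
theorem exists_iso_of_section {k : Type u} [Field k] {Y : Scheme.{u}} (q : Y ⟶ Spec (CommRingCat.of k))
    (hY : Curve.IsSmoothProperCurve k Y q) (hH0 : IsIso q.appTop) (hg : Models.curveGenus k Y q = 0)
    (s : Spec (CommRingCat.of k) ⟶ Y) (hs : s ≫ q = 𝟙 _) :
    ∃ e : Y ≅ CohB1.ProjSpace 1 k, e.hom ≫ CohB1.ProjSpace.toSpec 1 k = q := by
  obtain ⟨hp, hsm, hi, hdim⟩ := hY
  let _ : Y.Over (Spec (CommRingCat.of k)) := ⟨q⟩
  have : IsProper (Y ↘ Spec (CommRingCat.of k)) := hp
  have : Smooth (Y ↘ Spec (CommRingCat.of k)) := hsm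
  let z : Spec (CommRingCat.of k) := closedPoint k
  have hcl : IsClosedImmersion s := by
    have : IsClosedImmersion (s ≫ q) := by rw [hs]; infer_instance
    exact IsClosedImmersion.of_comp s q
  have hy : IsClosed ({s z} : Set Y) := by
    have h1 := s.isClosedEmbedding.isClosed_range
    have h2 : Set.range s = {s z} := by
      ext x
      constructor
      · rintro ⟨w, rfl⟩
        rw [Subsingleton.elim w z]; rfl
      · rintro rfl
        exact ⟨z, rfl⟩
    rwa [h2] at h1
  exact H55.Recog.exists_iso_of_point k Y hdim (finrank_H0 k Y hH0) hg (s z) hy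
    (Groth.Agent.S1535.result k Y (s z)) (exists_const_sub_mem q s hs z)

/-- **Curves of genus zero**: a closed point whose residue field is separable of degree at most two over `k`
gives an extension of degree at most two over which the curve becomes the projective line. -/
theorem main (k : Type u) [Field k] (C : Scheme.{u}) (f : C ⟶ Spec (CommRingCat.of k))
    (hC : Curve.IsSmoothProperCurve k C f) (hH0 : IsIso f.appTop) (hg : Models.curveGenus k C f = 0) (x : C)
    (hfd : @Module.Finite k (C.residueField x) _ _ (@Curv2.resAlgebra k _ C ⟨f⟩ x).toModule)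
    (hsep : @Algebra.IsSeparable k (C.residueField x) _ _ (@Curv2.resAlgebra k _ C ⟨f⟩ x)) (d : ℕ)
    (hdeg : @Module.finrank k (C.residueField x) _ _ (@Curv2.resAlgebra k _ C ⟨f⟩ x).toModule ≤ d) :
    ∃ (K' : Type u) (_ : Field K') (ψ : k →+* K'),
      Models.IsFiniteSeparable ψ ∧ Models.homDegree ψ ≤ d ∧
      ∃ e : (pullback f (Spec.map (CommRingCat.ofHom ψ))) ≅ CohB1.ProjSpace 1 K',
        e.hom ≫ CohB1.ProjSpace.toSpec 1 K' = (pullback.snd f (Spec.map (CommRingCat.ofHom ψ))) := by
  let _ : C.Over (Spec (CommRingCat.of k)) := ⟨f⟩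
  let _ : Algebra k (C.residueField x) := Curv2.resAlgebra k C x
  have hp := hC.1
  have H := IsPullback.of_hasPullback f (Spec.map (CommRingCat.ofHom (algebraMap k (C.residueField x))))
  have hC₁ := H58.CurveBC.isSmoothProperCurve H hC hH0
  have hc : CompactSpace C := (quasiCompact_iff_compactSpace f).mp inferInstance
  have hq : QuasiSeparatedSpace C := (quasiSeparated_iff_quasiSeparatedSpace f).mp inferInstance
  have hH0₁ := H58.CurveBC.isIso_appTop H hH0
  have hgen := (H58.CurveBC.curveGenus_eq H).trans hg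
  have hpt : C.fromSpecResidueField x ≫ f =
      Spec.map (CommRingCat.ofHom (algebraMap k (C.residueField x))) :=
    (VarietyB.ResMap.specMap_resMap k C x).symm
  refine ⟨C.residueField x, inferInstance, algebraMap k (C.residueField x), ⟨hfd, hsep⟩, hdeg, ?_⟩
  exact exists_iso_of_section _ hC₁ hH0₁ hgen
    (pullback.lift (C.fromSpecResidueField x) (𝟙 _) (by rw [hpt, Category.id_comp]))
    (pullback.lift_snd _ _ _)

end Groth.Agent.Models.H59.ConicEnd
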