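import Groth.Prelude.Def_ModelsG
import Groth.Agent.S1592
import Groth.Agent.Ega3B.FibreSpreadIso
import Groth.Agent.Models.DVRGeneric2
import Mathlib.AlgebraicGeometry.Morphisms.FlatMono

/-!
Criterion for a model over a discrete valuation ring to be an at-worst-nodal family:
all fibres smooth proper curves. Invariance of nodal families under isomorphism.
-/

set_option autoImplicit false
universe u

open CategoryTheory CategoryTheory.Limits AlgebraicGeometry

namespace Groth.Agent.Models.H59.FibreNodal

/-- A nodal family precomposed with an isomorphism is a nodal family. -/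
theorem isNodalFamily_of_iso {X Y S : Scheme.{u}} {p : X ⟶ S} {q : Y ⟶ S} (e : X ≅ Y)
    (he : e.hom ≫ q = p) (hq : Curv2.IsNodalFamily q) : Curv2.IsNodalFamily p := by
  rw [← he]
  exact Groth.Agent.S1592.result q hq e.hom

/-- A monomorphism from the spectrum of a field factors through an isomorphism onto the spectrum of the
residue field. -/
theorem exists_iso_fac {S : Scheme.{u}} (K : Type u) [Field K] (q : Spec (.of K) ⟶ S) [Mono q] {s : S}
    (hs : q (IsLocalRing.closedPoint K) = s) :
    ∃ e : Spec (.of K) ≅ Spec (S.residueField s), e.hom ≫ S.fromSpecResidueField s = q := by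
  obtain ⟨q', hq'⟩ := Groth.Agent.Ega3B.FibreSpreadIso.exists_fac_fromSpecResidueField K q hs
  have hm : Mono (q' ≫ S.fromSpecResidueField s) := by rw [hq']; infer_instance
  have : Mono q' := mono_of_mono q' (S.fromSpecResidueField s)
  have : Flat q' := by
    obtain ⟨φ, rfl⟩ := Spec.map_surjective q'
    rw [Flat.SpecMap_iff]
    algebraize [φ.hom]
    have : IsField ((S.residueField s : CommRingCat) : Type u) := Field.toIsField _
    change Module.Flat _ _
    infer_instance
  have : Surjective q' := ⟨fun x => ⟨IsLocalRing.closedPoint K, Subsingleton.elim _ _⟩⟩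
  have := Flat.isIso_of_surjective_of_mono q'
  exact ⟨asIso q', hq'⟩

/-- All fibres smooth proper curves implies a nodal family. -/
theorem isNodalFamily_of_fibres {X S : Scheme.{u}} (p : X ⟶ S) [Flat p] [LocallyOfFinitePresentation p]
    (h : ∀ s : S, Smooth (p.fiberToSpecResidueField s) ∧ IrreducibleSpace (p.fiber s) ∧
      topologicalKrullDim (p.fiber s) = 1) : Curv2.IsNodalFamily p := by
  refine ⟨inferInstance, inferInstance, fun s => ⟨fun Z hZ => ?_, ?_⟩⟩
  · obtain ⟨h1, h2, h3⟩ := h s
    rw [irreducibleComponents_eq_singleton, Set.mem_singleton_iff] at hZ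
    subst hZ
    rw [← h3]
    exact IsHomeomorph.topologicalKrullDim_eq _ (Homeomorph.Set.univ _).isHomeomorph
  · obtain ⟨h1, h2, h3⟩ := h s
    intro x hx
    left
    refine ⟨⊤, trivial, ?_⟩
    have : Smooth (p.fiberToSpecResidueField s) := h1
    change Smooth (Scheme.Opens.ι ⊤ ≫ p.fiberToSpecResidueField s)
    infer_instance

/-- Transfer of the fibre conditions along a pullback square over a monomorphism from the spectrum of a
field. -/
theorem fibre_conditions {X S F : Scheme.{u}} (p : X ⟶ S) (K : Type u) [Field K] (q : Spec (.of K) ⟶ S)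
    [Mono q] {s : S} (hs : q (IsLocalRing.closedPoint K) = s) (i : F ⟶ X) (f : F ⟶ Spec (.of K))
    (h : IsPullback i f p q) (hsm : Smooth f) (hirr : IrreducibleSpace F)
    (hdim : topologicalKrullDim F = 1) :
    Smooth (p.fiberToSpecResidueField s) ∧ IrreducibleSpace (p.fiber s) ∧
      topologicalKrullDim (p.fiber s) = 1 := by
  obtain ⟨e, he⟩ := exists_iso_fac K q hs
  have h1 : IsPullback i (f ≫ e.hom) p (S.fromSpecResidueField s) := by
    refine IsPullback.of_iso h (Iso.refl _) (Iso.refl _) e (Iso.refl _) (by simp) (by simp) (by simp) ?_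
    simp [he]
  have h2 : IsPullback (p.fiberι s) (p.fiberToSpecResidueField s) p (S.fromSpecResidueField s) :=
    IsPullback.of_hasPullback _ _
  let e' : F ≅ p.fiber s := h1.isoIsPullback _ _ h2
  have he' : e'.hom ≫ p.fiberToSpecResidueField s = f ≫ e.hom := h1.isoIsPullback_hom_snd _ _ h2
  refine ⟨?_, ?_, ?_⟩
  · have h3 : p.fiberToSpecResidueField s = e'.inv ≫ f ≫ e.hom := by rw [← he']; simp
    rw [h3]
    infer_instance
  · exact (Homeomorph.irreducibleSpace_iff (Scheme.homeoOfIso e')).1 hirr
  · rw [← hdim]
    exact (IsHomeomorph.topologicalKrullDim_eq _ (Scheme.homeoOfIso e').isHomeomorph).symm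

end Groth.Agent.Models.H59.FibreNodal
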