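import Groth.Agent.Models.H59.FibreNodal
import Groth.Agent.Sga5.ProjSmooth
import Groth.Agent.CohqA.ProjDim

/-!
A model of a smooth proper curve over a discrete valuation ring whose closed fibre is the projective line
over the residue field is an at-worst-nodal family.
-/

set_option autoImplicit false
universe u

open CategoryTheory CategoryTheory.Limits AlgebraicGeometry

namespace Groth.Agent.Models.H59.P1Fibre

theorem topologicalKrullDim_P1 (k : Type u) [Field k] :
    topologicalKrullDim (CohB1.ProjSpace 1 k) = 1 := by
  refine le_antisymm (CohqA.ProjDim.topologicalKrullDim_le k 1) ?_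
  have h1 := (Sga5.ProjSmooth.chart 1 k 0).isOpenEmbedding.isInducing.topologicalKrullDim_le
  refine le_trans ?_ h1
  have h2 : topologicalKrullDim (Spec (CommRingCat.of (MvPolynomial (Fin 1) k))) =
      ringKrullDim (MvPolynomial (Fin 1) k) :=
    PrimeSpectrum.topologicalKrullDim_eq_ringKrullDim _
  rw [h2, MvPolynomial.ringKrullDim_of_isNoetherianRing, ringKrullDim_eq_zero_of_field]
  simp

theorem smooth_toSpec (k : Type u) [Field k] : Smooth (CohB1.ProjSpace.toSpec 1 k) :=
  SmoothOfRelativeDimension.smooth 1 _

/-- A model whose closed fibre is a smooth irreducible curve is a nodal family. -/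
theorem isNodalFamily_of_smooth_specialFibre (R : Type u) [CommRing R] [IsDomain R]
    [IsDiscreteValuationRing R] {C X : Scheme.{u}} {f : C ⟶ Spec (CommRingCat.of (FractionRing R))}
    {p : X ⟶ Spec (CommRingCat.of R)} (hC : Curve.IsSmoothProperCurve (FractionRing R) C f)
    (hX : _root_.Models.IsModel R X p C f)
    (hs : Smooth (pullback.snd p (Spec.map (CommRingCat.ofHom (algebraMap R (IsLocalRing.ResidueField R))))))
    (hirr : IrreducibleSpace (_root_.Models.specialFibre R X p))
    (hdim : topologicalKrullDim (_root_.Models.specialFibre R X p) = 1) : Curv2.IsNodalFamily p := by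
  obtain ⟨h1, h2, h3, g, hg⟩ := hX
  have hNR : IsNoetherianRing (CommRingCat.of R) := inferInstanceAs (IsNoetherianRing R)
  have hNS : IsLocallyNoetherian (Spec (CommRingCat.of R)) := inferInstance
  have hfp : LocallyOfFinitePresentation p := inferInstance
  refine FibreNodal.isNodalFamily_of_fibres p fun s => ?_
  by_cases hs' : s = IsLocalRing.closedPoint R
  · have hcl : IsClosedImmersion (Spec.map (CommRingCat.ofHom
        (algebraMap R (IsLocalRing.ResidueField R)))) :=
      IsClosedImmersion.spec_of_surjective _ Ideal.Quotient.mk_surjective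
    exact FibreNodal.fibre_conditions p _ (Spec.map (CommRingCat.ofHom
      (algebraMap R (IsLocalRing.ResidueField R)))) (s := s) (by
        rw [hs']
        have : IsLocalHom (algebraMap R (IsLocalRing.ResidueField R)) :=
          inferInstanceAs (IsLocalHom (IsLocalRing.residue R))
        exact IsLocalRing.comap_closedPoint (algebraMap R (IsLocalRing.ResidueField R)))
      _ _ (IsPullback.of_hasPullback _ _) hs hirr hdim
  · have h4 := DVRGeneric.isOpenImmersion_generic R (FractionRing R)
    have := hC.2.2.1
    exact FibreNodal.fibre_conditions p _ (Spec.map (CommRingCat.ofHom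
      (algebraMap R (FractionRing R)))) (s := s) (by
        obtain ⟨y, hy⟩ := DVRGeneric.range_generic R (FractionRing R) s hs'
        have hy' : y = IsLocalRing.closedPoint (FractionRing R) := Subsingleton.elim _ _
        rw [hy'] at hy
        exact hy)
      g f hg hC.2.1 inferInstance hC.2.2.2

/-- A model whose closed fibre is the projective line is a nodal family. -/
theorem isNodalFamily_of_specialFibre_iso (R : Type u) [CommRing R] [IsDomain R]
    [IsDiscreteValuationRing R] {C X : Scheme.{u}} {f : C ⟶ Spec (CommRingCat.of (FractionRing R))}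
    {p : X ⟶ Spec (CommRingCat.of R)} (hC : Curve.IsSmoothProperCurve (FractionRing R) C f)
    (hX : _root_.Models.IsModel R X p C f)
    (e : _root_.Models.specialFibre R X p ≅ CohB1.ProjSpace 1 (IsLocalRing.ResidueField R))
    (he : e.hom ≫ CohB1.ProjSpace.toSpec 1 (IsLocalRing.ResidueField R) =
      pullback.snd p (Spec.map (CommRingCat.ofHom (algebraMap R (IsLocalRing.ResidueField R))))) :
    Curv2.IsNodalFamily p := by
  refine isNodalFamily_of_smooth_specialFibre R hC hX ?_ ?_ ?_
  · have h1 : Smooth (CohB1.ProjSpace.toSpec 1 (IsLocalRing.ResidueField R)) :=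
      smooth_toSpec (IsLocalRing.ResidueField R)
    rw [← he]
    exact MorphismProperty.comp_mem _ _ _ (inferInstanceAs (Smooth e.hom)) h1
  · exact (Homeomorph.irreducibleSpace_iff (Scheme.homeoOfIso e)).2 inferInstance
  · rw [← topologicalKrullDim_P1 (IsLocalRing.ResidueField R)]
    exact IsHomeomorph.topologicalKrullDim_eq _ (Scheme.homeoOfIso e).isHomeomorph

end Groth.Agent.Models.H59.P1Fibre
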