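import Groth.Agent.Models.H59.P1Fibre
import Groth.Agent.Models.H62.ContrSeq
import Groth.Agent.S2226

/-!
Reduction of the theorem "every minimal model of a curve with semistable reduction is a nodal family" to:
contraction to a minimal model, uniqueness in positive genus, and the closed fibre in genus zero when the
minimal model is not unique.
-/

set_option autoImplicit false
universe u

open CategoryTheory CategoryTheory.Limits AlgebraicGeometry

namespace Groth.Agent.Models.H59.Reduce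

theorem isNodalFamily_of (R : Type u) [CommRing R] [IsDomain R] [IsDiscreteValuationRing R]
    (C X : Scheme.{u}) (f : C ⟶ Spec (CommRingCat.of (FractionRing R))) (p : X ⟶ Spec (CommRingCat.of R))
    (hC : Curve.IsSmoothProperCurve (FractionRing R) C f) (hH0 : IsIso f.appTop)
    (hss : _root_.Models.HasSemistableReduction R C f) (hX : _root_.Models.IsMinimalModel R X p C f)
    (H29 : ∀ (Y : Scheme.{u}) (q : Y ⟶ Spec (CommRingCat.of R))
      (_ : _root_.Models.IsRegularProperModel R Y q C f) (gY : C ⟶ Y)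
      (_ : IsPullback gY f q (Spec.map (CommRingCat.ofHom (algebraMap R (FractionRing R))))),
      ∃ (X : Scheme.{u}) (p : X ⟶ Spec (CommRingCat.of R)) (gX : C ⟶ X) (b : Y ⟶ X),
        _root_.Models.IsMinimalModel R X p C f ∧
        IsPullback gX f p (Spec.map (CommRingCat.ofHom (algebraMap R (FractionRing R)))) ∧
        b ≫ p = q ∧ gY ≫ b = gX ∧ _root_.Models.IsContractionSeq b)
    (H30 : ∀ (X₁ X₂ : Scheme.{u})
      (p₁ : X₁ ⟶ Spec (CommRingCat.of R)) (p₂ : X₂ ⟶ Spec (CommRingCat.of R))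
      (_ : 0 < _root_.Models.curveGenus (FractionRing R) C f)
      (_ : _root_.Models.IsMinimalModel R X₁ p₁ C f) (_ : _root_.Models.IsMinimalModel R X₂ p₂ C f)
      (g₁ : C ⟶ X₁) (_ : IsPullback g₁ f p₁ (Spec.map (CommRingCat.ofHom (algebraMap R (FractionRing R)))))
      (g₂ : C ⟶ X₂) (_ : IsPullback g₂ f p₂ (Spec.map (CommRingCat.ofHom (algebraMap R (FractionRing R))))),
      ∃! e : X₁ ≅ X₂, e.hom ≫ p₂ = p₁ ∧ g₁ ≫ e.hom = g₂)
    (H32 : ∀ (X₁ X₂ X : Scheme.{u})
      (p₁ : X₁ ⟶ Spec (CommRingCat.of R)) (p₂ : X₂ ⟶ Spec (CommRingCat.of R)) (p : X ⟶ Spec (CommRingCat.of R))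
      (_ : _root_.Models.curveGenus (FractionRing R) C f = 0)
      (_ : _root_.Models.IsMinimalModel R X₁ p₁ C f) (_ : _root_.Models.IsMinimalModel R X₂ p₂ C f)
      (_ : _root_.Models.IsMinimalModel R X p C f)
      (g₁ : C ⟶ X₁) (_ : IsPullback g₁ f p₁ (Spec.map (CommRingCat.ofHom (algebraMap R (FractionRing R)))))
      (g₂ : C ⟶ X₂) (_ : IsPullback g₂ f p₂ (Spec.map (CommRingCat.ofHom (algebraMap R (FractionRing R)))))
      (_ : ∀ e : X₁ ≅ X₂, e.hom ≫ p₂ = p₁ → g₁ ≫ e.hom ≠ g₂),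
      ∃ e : _root_.Models.specialFibre R X p ≅ CohB1.ProjSpace 1 (IsLocalRing.ResidueField R),
        e.hom ≫ CohB1.ProjSpace.toSpec 1 (IsLocalRing.ResidueField R) =
          pullback.snd p (Spec.map (CommRingCat.ofHom (algebraMap R (IsLocalRing.ResidueField R))))) :
    Curv2.IsNodalFamily p := by
  obtain ⟨Y, q, hY, hYn⟩ := Groth.Agent.S2226.result R C f hC hH0 hss
  obtain ⟨gY, hgY⟩ := hY.1.2.2.2
  obtain ⟨X₀, p₀, g₀, b, hX₀, hg₀, hbp, hbg, hb⟩ := H29 Y q hY gY hgY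
  have hft : LocallyOfFiniteType p₀ := hX₀.1.1.2.1
  have hn₀ : Curv2.IsNodalFamily p₀ := by
    refine H62.ContrSeq.isNodalFamily R b hb p₀ ?_
    rw [hbp]
    exact hYn
  obtain ⟨gX, hgX⟩ := hX.1.1.2.2.2
  by_cases hiso : ∃ e : X ≅ X₀, e.hom ≫ p₀ = p ∧ gX ≫ e.hom = g₀
  · obtain ⟨e, he, _⟩ := hiso
    exact FibreNodal.isNodalFamily_of_iso e he hn₀
  · rcases Nat.eq_zero_or_pos (_root_.Models.curveGenus (FractionRing R) C f) with hg | hg
    · obtain ⟨e, he⟩ := H32 X X₀ X p p₀ p hg hX hX₀ hX gX hgX g₀ hg₀ (by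
        intro e he1 he2
        exact hiso ⟨e, he1, he2⟩)
      exact P1Fibre.isNodalFamily_of_specialFibre_iso R hC hX.1.1 e he
    · obtain ⟨e, he, _⟩ := H30 X X₀ p p₀ hg hX hX₀ gX hgX g₀ hg₀
      exact absurd ⟨e, he⟩ hiso

end Groth.Agent.Models.H59.Reduce
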